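import Cfsg.Agent.H493.CC.CoxD
import Cfsg.Agent.H493.CC.AmbB

/-!
# The Coxeter group of type `D_{n+2}` is ambivalent (helper493, S4884)

`real_D` : every `w` is conjugate to `w⁻¹`.
-/

set_option autoImplicit false

namespace Cfsg.Agent.H493.CC

open Cfsg Cfsg.Agent.H215.WB Cfsg.Agent.Nodes.TypeC Equiv.Perm

variable {n : ℕ}

theorem sameCycle_ng {π : Equiv.Perm (Fin n × Bool)} (h : ∀ x, π (ng x) = ng (π x)) {a b : Fin n × Bool}
    (hab : SameCycle π a b) : SameCycle π (ng a) (ng b) := by
  obtain ⟨j, rfl⟩ := hab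
  refine ⟨j, ?_⟩
  have h1 : Commute π (ngP n) := Equiv.ext fun x => h x
  exact DFunLike.congr_fun (h1.zpow_left j) a

theorem ng_ne (x : Fin n × Bool) : ng x ≠ x := by
  intro h
  have h1 : (!x.2) = x.2 := congrArg Prod.snd h
  exact absurd h1 (by cases x.2 <;> decide)

/-- **A negative cycle is odd and centralises.** -/
theorem exists_odd (g : Wb (Fin n)) (x : Fin n × Bool) (hx : SameCycle (cc g) x (ng x)) :
    ∃ c : Wb (Fin n), c * g = g * c ∧ par c = -1 := by
  classical
  set π := cc g with hπ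
  have h : ∀ x, π (ng x) = ng (π x) := cc_ng g
  have hne : π x ≠ x := by
    intro h0
    exact ng_ne x ((hx.eq_of_left h0).symm)
  have hs : ∀ y, SameCycle π x (ng y) ↔ SameCycle π x y := by
    have h1 : ∀ y, SameCycle π x y → SameCycle π x (ng y) := fun y hy => hx.trans (sameCycle_ng h hy)
    intro y
    refine ⟨fun hy => ?_, h1 y⟩
    have := h1 _ hy
    rwa [ng_ng] at this
  have hc1 : ∀ y, cycleOf π x (π y) = π (cycleOf π x y) := by
    intro y
    rw [cycleOf_apply, cycleOf_apply]
    by_cases hy : SameCycle π x y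
    · rw [if_pos hy, if_pos (sameCycle_apply_right.2 hy)]
    · rw [if_neg hy, if_neg fun h' => hy (sameCycle_apply_right.1 h')]
  have hc2 : ∀ y, cycleOf π x (ng y) = ng (cycleOf π x y) := by
    intro y
    rw [cycleOf_apply, cycleOf_apply]
    by_cases hy : SameCycle π x y
    · rw [if_pos hy, if_pos ((hs y).2 hy), h]
    · rw [if_neg hy, if_neg fun h' => hy ((hs y).1 h')]
  obtain ⟨c, hc⟩ := exists_cc _ hc2
  refine ⟨c, cc_injective ?_, ?_⟩
  · rw [map_mul, map_mul, hc]
    exact Equiv.ext hc1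
  · rw [par_eq_sign, hc, (isCycle_cycleOf π hne).sign]
    have h3 : ∏ y ∈ (cycleOf π x).support, (-1 : ℤˣ) = 1 := by
      refine Finset.prod_involution (fun y _ => ng y) (fun y _ => by decide) (fun y _ _ => ng_ne y) (fun y hy => ?_)
        (fun y _ => ng_ng y)
      rw [mem_support_cycleOf_iff] at hy ⊢
      exact ⟨(hs y).2 hy.1, hy.2⟩
    rw [Finset.prod_const] at h3
    rw [h3]

/-- **Without negative cycles `g` is conjugate to a permutation.** -/
theorem exists_conj_inr (g : Wb (Fin n)) (hno : ∀ x, ¬ SameCycle (cc g) x (ng x)) :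
    ∃ (h : Wb (Fin n)) (σ : Equiv.Perm (Fin n)), h * g * h⁻¹ = SemidirectProduct.inr σ := by
  classical
  set π := cc g with hπ
  have hcn : ∀ x, π (ng x) = ng (π x) := cc_ng g
  let r : Fin n → Fin n := fun a => (Quotient.mk (SameCycle.setoid g.right) a).out
  have hr1 : ∀ a, SameCycle g.right (r a) a := fun a => Quotient.mk_out (s := SameCycle.setoid g.right) a
  have hr2 : ∀ a, r (g.right a) = r a := by
    intro a
    have h1 : (Quotient.mk (SameCycle.setoid g.right) (g.right a)) = Quotient.mk (SameCycle.setoid g.right) a :=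
      Quotient.sound (sameCycle_apply_left.2 (SameCycle.refl _ _))
    show (Quotient.mk (SameCycle.setoid g.right) (g.right a)).out = _
    rw [h1]
  have hfst : ∀ y, (π y).1 = g.right y.1 := fun y => rfl
  have hfstz : ∀ (j : ℤ) (y : Fin n × Bool), ((π ^ j) y).1 = (g.right ^ j) y.1 := by
    intro j y
    rw [hπ, ← map_zpow, cc_apply]
    show ((g ^ j).right) y.1 = _
    have : (g ^ j).right = g.right ^ j := map_zpow (SemidirectProduct.rightHom : Wb (Fin n) →* _) g j
    rw [this]
  let Y : Fin n × Bool → Prop := fun y => SameCycle π (r y.1, true) y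
  have hY1 : ∀ y, Y (π y) ↔ Y y := by
    intro y
    show SameCycle π (r (π y).1, true) (π y) ↔ SameCycle π (r y.1, true) y
    rw [hfst, hr2, sameCycle_apply_right]
  have hY2 : ∀ y, Y (ng y) ↔ ¬ Y y := by
    intro y
    constructor
    · intro h1 h2
      exact hno y (h2.symm.trans h1)
    · intro h1
      obtain ⟨j, hj⟩ := hr1 y.1
      have h2 : ((π ^ j) (r y.1, true)).1 = y.1 := by rw [hfstz]; exact hj
      rcases eq_or_ng' ((π ^ j) (r y.1, true)) with e | e
      · rcases eq_or_ng' y with e' | e'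
        · exfalso
          apply h1
          exact ⟨j, by rw [e, h2]; exact e'.symm⟩
        · exact ⟨j, by
            show (π ^ j) (r y.1, true) = ng y
            rw [e, h2]
            conv_rhs => rw [e', ng_ng]⟩
      · rcases eq_or_ng' y with e' | e'
        · exact ⟨j, by
            show (π ^ j) (r y.1, true) = ng y
            rw [e, h2]
            conv_rhs => rw [e']⟩
        · exfalso
          apply h1
          exact ⟨j, by rw [e, h2]; exact e'.symm⟩
  let ε : Fin n → ℤˣ := fun a => if Y (a, true) then 1 else -1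
  let h : Wb (Fin n) := SemidirectProduct.inl ε
  have hh : ∀ y, (cc h y).2 = true ↔ Y y := by
    intro y
    have e0 : (cc h y).2 = bx (ε y.1) y.2 := rfl
    rw [e0]
    obtain ⟨a, b⟩ := y
    cases b
    · have e1 : Y (a, false) ↔ ¬ Y (a, true) := hY2 (a, true)
      rw [e1]
      show bx (if Y (a, true) then 1 else -1) false = true ↔ _
      by_cases hy : Y (a, true)
      · rw [if_pos hy, bx_one]
        simp [hy]
      · rw [if_neg hy, bx_neg]
        simp [hy]
    · show bx (if Y (a, true) then 1 else -1) true = true ↔ _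
      by_cases hy : Y (a, true)
      · rw [if_pos hy, bx_one]
        simp [hy]
      · rw [if_neg hy, bx_neg]
        simp [hy]
  have hsnd : ∀ y, (cc (h * g * h⁻¹) y).2 = y.2 := by
    intro y
    have h1 : (cc (h * g * h⁻¹) y).2 = true ↔ y.2 = true := by
      have e1 : cc (h * g * h⁻¹) y = cc h (π ((cc h)⁻¹ y)) := by
        rw [map_mul, map_mul, map_inv]
        rfl
      rw [e1, hh, hY1, ← hh, app_inv]
    by_cases h2 : y.2 = true
    · rw [h2]; exact h1.2 h2
    · have h3 : ¬ (cc (h * g * h⁻¹) y).2 = true := fun h4 => h2 (h1.1 h4)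
      rw [Bool.not_eq_true] at h2 h3
      rw [h2, h3]
  refine ⟨h, (h * g * h⁻¹).right, ?_⟩
  refine SemidirectProduct.ext ?_ rfl
  funext a
  set k := h * g * h⁻¹ with hk
  have h5 := hsnd (k.right⁻¹ a, true)
  rw [cc_apply] at h5
  have h6 : bx (k.left (k.right (k.right⁻¹ a))) true = true := h5
  rw [app_inv] at h6
  show k.left a = 1
  rcases Int.units_eq_one_or (k.left a) with h7 | h7
  · exact h7
  · rw [h7, bx_neg] at h6
    exact absurd h6 (by decide)

/-- **Every even signed permutation is conjugate to its inverse by an even one.** -/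
theorem real_even (g : Wb (Fin n)) : ∃ k : Wb (Fin n), par k = 1 ∧ k * g * k⁻¹ = g⁻¹ := by
  by_cases hex : ∃ x, SameCycle (cc g) x (ng x)
  · obtain ⟨x, hx⟩ := hex
    obtain ⟨c, hc1, hc2⟩ := exists_odd g x hx
    obtain ⟨k, -, hk⟩ := real_Wb g
    rcases Int.units_eq_one_or (par k) with h | h
    · exact ⟨k, h, hk⟩
    · refine ⟨k * c, by rw [map_mul, h, hc2]; decide, ?_⟩
      rw [← hk, mul_inv_rev]
      calc k * c * g * (c⁻¹ * k⁻¹) = k * (c * g) * c⁻¹ * k⁻¹ := by group
        _ = k * g * k⁻¹ := by rw [hc1]; group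
  · push Not at hex
    obtain ⟨h, σ, e⟩ := exists_conj_inr g hex
    have h1 : IsConj σ σ⁻¹ := by rw [Equiv.Perm.isConj_iff_cycleType_eq, Equiv.Perm.cycleType_inv]
    obtain ⟨ρ, hρ⟩ := isConj_iff.1 h1
    refine ⟨h⁻¹ * SemidirectProduct.inr ρ * h, ?_, ?_⟩
    · rw [map_mul, map_mul, par_inr, map_inv, mul_one, inv_mul_cancel]
    · have h2 : (SemidirectProduct.inr ρ : Wb (Fin n)) * SemidirectProduct.inr σ * (SemidirectProduct.inr ρ)⁻¹ =
          (SemidirectProduct.inr σ)⁻¹ := by
        rw [← map_mul, ← map_inv, ← map_mul, hρ, map_inv]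
      calc h⁻¹ * SemidirectProduct.inr ρ * h * g * (h⁻¹ * SemidirectProduct.inr ρ * h)⁻¹
          = h⁻¹ * (SemidirectProduct.inr ρ * (h * g * h⁻¹) * (SemidirectProduct.inr ρ)⁻¹) * h := by group
        _ = g⁻¹ := by rw [e, h2, ← e]; group

/-- **Every element of the Coxeter group of type `D_{n+2}` is conjugate to its inverse.** -/
theorem real_D {W : Type*} [Group W] (cs : CoxeterSystem (Nodes.TypeD.M n) W) (w : W) : IsConj w w⁻¹ := by
  obtain ⟨k, hk, e⟩ := real_even (homD cs w)
  obtain ⟨v, rfl⟩ : k ∈ (homD cs).range := by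
    rw [range_homD]
    exact hk
  rw [isConj_iff]
  refine ⟨v, homD_injective cs ?_⟩
  rw [map_mul, map_mul, map_inv, e, map_inv]

end Cfsg.Agent.H493.CC
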