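import Mathlib

/-!
# Inversion of a commutative group action (helper493)

`exists_inv` : a commutative group `A` acts on `X`: there is an involution `τ` of `X` with `τ (a • x) = a⁻¹ • τ x`,
preserving the orbits.
-/

set_option autoImplicit false

namespace Cfsg.Agent.H493.CC

/-- **Inversion**: choose a base point in each orbit. -/
theorem exists_inv {A X : Type*} [Group A] [MulAction A X] (hA : ∀ a b : A, a * b = b * a) :
    ∃ τ : Equiv.Perm X, (∀ (a : A) (x : X), τ (a • x) = a⁻¹ • τ x) ∧ (∀ x, τ (τ x) = x) ∧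
      (∀ x, ∃ a : A, τ x = a • x) ∧
      ∀ x, ∃ a : A, τ (a • x) = a • x := by
  classical
  let r : X → X := fun x => (Quotient.mk (MulAction.orbitRel A X) x).out
  have ex : ∀ x, ∃ a : A, a • r x = x := by
    intro x
    have h1 : (MulAction.orbitRel A X) (r x) x := Quotient.mk_out (s := MulAction.orbitRel A X) x
    have h2 : (MulAction.orbitRel A X) x (r x) := (MulAction.orbitRel A X).symm h1
    obtain ⟨a, ha⟩ := MulAction.orbitRel_apply.1 h2
    exact ⟨a, ha⟩
  have hr : ∀ (a : A) (x : X), r (a • x) = r x := by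
    intro a x
    have h1 : (Quotient.mk (MulAction.orbitRel A X) (a • x)) = Quotient.mk (MulAction.orbitRel A X) x :=
      Quotient.sound (MulAction.orbitRel_apply.2 ⟨a, rfl⟩)
    show (Quotient.mk (MulAction.orbitRel A X) (a • x)).out = _
    rw [h1]
  let c : X → A := fun x => (ex x).choose
  have hc : ∀ x, c x • r x = x := fun x => (ex x).choose_spec
  let t : X → X := fun x => (c x)⁻¹ • r x
  have key : ∀ (x : X) (a : A), a • r x = x → t x = a⁻¹ • r x := by
    intro x a ha
    show (c x)⁻¹ • r x = a⁻¹ • r x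
    have h1 : (a⁻¹ * c x) • r x = r x := by
      rw [mul_smul, hc, ← ha]
      have h2 : r (a • r x) = r x := by rw [ha]
      rw [h2, inv_smul_smul]
    rw [hA] at h1
    have h3 : (c x)⁻¹ • r x = (c x)⁻¹ • ((c x * a⁻¹) • r x) := by rw [h1]
    rw [h3, ← mul_smul, ← mul_assoc, inv_mul_cancel, one_mul]
  have hrt : ∀ x, r (t x) = r x := by
    intro x
    show r ((c x)⁻¹ • r x) = r x
    rw [hr]
    conv_rhs => rw [← hc x, hr]
  have htt : ∀ x, t (t x) = x := by
    intro x
    have h1 : (c x)⁻¹ • r (t x) = t x := by rw [hrt]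
    rw [key (t x) _ h1, inv_inv, hrt, hc]
  have ht : ∀ (a : A) (x : X), t (a • x) = a⁻¹ • t x := by
    intro a x
    have h1 : (a * c x) • r (a • x) = a • x := by rw [hr, mul_smul, hc]
    rw [key _ _ h1, hr, mul_inv_rev, hA, mul_smul]
  have hrr : ∀ x, r (r x) = r x := by
    intro x
    have h1 : (c x)⁻¹ • x = r x := inv_smul_eq_iff.2 (hc x).symm
    conv_lhs => rw [← h1]
    exact hr _ _
  refine ⟨⟨t, t, htt, htt⟩, ht, htt, fun x => ⟨(c x)⁻¹ * (c x)⁻¹, ?_⟩, fun x => ⟨(c x)⁻¹, ?_⟩⟩
  · show (c x)⁻¹ • r x = _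
    have h1 : (c x)⁻¹ • x = r x := inv_smul_eq_iff.2 (hc x).symm
    rw [mul_smul, h1]
  · have h1 : (c x)⁻¹ • x = r x := inv_smul_eq_iff.2 (hc x).symm
    rw [h1]
    show t (r x) = r x
    have h2 : (1 : A) • r (r x) = r x := by rw [one_smul, hrr]
    rw [key _ _ h2, inv_one, h2]

end Cfsg.Agent.H493.CC
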